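import Cfsg.Agent.AutPSU.Card
import Cfsg.Agent.Classical.Unitary.Simple
import Cfsg.Agent.Chars.Apps.Burnside
import Mathlib.GroupTheory.Sylow

/-!
# The `p'`-core of `PSU_n(q)`, the case `(n, q) = (3, 2)` included
-/

set_option autoImplicit false

namespace CfsgLib.AutPSU

open Matrix CfsgLib.Unitary

variable {F : Type*} [Field F] [Fintype F] {n q : ℕ}

set_option quotPrecheck false in
local notation "SUn" => ↥(Cfsg.SU n F q)
local notation "PSUn" => Cfsg.PSU n F q

/-- `|SU| = (n, q + 1) |PSU|`. -/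
theorem card_SU_eq_gcd_mul (hF : Fintype.card F = q ^ 2) (hn : 2 ≤ n) :
    Nat.card SUn = Nat.gcd n (q + 1) * Nat.card PSUn := by
  rw [← card_center_SU hF hn, mul_comm]
  exact Subgroup.card_eq_card_quotient_mul_card_subgroup _

/-- A prime dividing `|SU|` divides `|PSU|`. -/
theorem dvd_card_PSU (hF : Fintype.card F = q ^ 2) (hn : 3 ≤ n) {p : ℕ} (hp : p.Prime)
    (h : p ∣ Nat.card SUn) : p ∣ Nat.card PSUn := by
  classical
  haveI := Fact.mk hp
  rw [card_SU_eq_gcd_mul hF (by omega)] at h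
  rcases hp.dvd_mul.mp h with h | h
  · have hpq : p ∣ q + 1 := h.trans (Nat.gcd_dvd_right _ _)
    obtain ⟨u, hu⟩ := exists_prime_orderOf_dvd_card' (G := Fˣ) p (by
      rw [card_units_eq hF]; exact hpq.trans (Dvd.intro_left _ rfl))
    have hup : (u : F) ^ p = 1 := by rw [← Units.val_pow_eq_pow_val, ← hu, pow_orderOf_eq_one, Units.val_one]
    have hu1 : (u : F) ^ (q + 1) = 1 := by
      obtain ⟨c, hc⟩ := hpq
      rw [hc, pow_mul, hup, one_pow]
    obtain ⟨A, hA, hAv⟩ := exists_torus_mem_SU (n := n) (q := q) hu1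
      (i := ⟨0, by omega⟩) (k := ⟨1, by omega⟩) (by simp)
    set D : PSUn := QuotientGroup.mk ⟨A, hA⟩
    have hD : D ≠ 1 := by
      intro h1
      obtain ⟨c, hc⟩ := (mem_center_SU_iff hF (by omega) _).mp ((QuotientGroup.eq_one_iff _).mp h1)
      have e := (hAv.symm.trans hc)
      have e0 := congrFun (congrFun e ⟨0, by omega⟩) ⟨0, by omega⟩
      have e2 := congrFun (congrFun e ⟨2, by omega⟩) ⟨2, by omega⟩
      simp [Matrix.scalar_apply, Function.update_apply, Fin.ext_iff] at e0 e2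
      rw [← e2] at e0
      exact hp.ne_one (by rw [← hu, orderOf_eq_one_iff]; exact Units.ext e0)
    have hDp : D ^ p = 1 := by
      rw [← QuotientGroup.mk_pow]
      refine (congrArg QuotientGroup.mk
        (show (⟨A, hA⟩ : SUn) ^ p = 1 from Subtype.ext (Subtype.ext ?_))).trans (QuotientGroup.mk_one _)
      change (A ^ p).1 = (1 : Matrix (Fin n) (Fin n) F)
      rw [Matrix.SpecialLinearGroup.coe_pow, hAv, Matrix.diagonal_pow]
      refine (Matrix.diagonal_eq_diagonal_iff.mpr fun b => ?_).trans Matrix.diagonal_one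
      simp only [Pi.pow_apply, Function.update_apply]
      split_ifs <;> simp [hup, inv_pow]
    exact orderOf_eq_prime hDp hD ▸ orderOf_dvd_natCard D
  · exact h

/-- A normal `2`-subgroup of `PSU_3(2)` is trivial. -/
theorem eq_bot_of_two_group {F : Type*} [Field F] [Fintype F] (hF : Fintype.card F = 2 ^ 2)
    (M : Subgroup (Cfsg.PSU 3 F 2)) [hM : M.Normal] {k : ℕ} (hk : Nat.card M = 2 ^ k) : M = ⊥ := by
  classical
  haveI : Fact (Nat.Prime 2) := ⟨Nat.prime_two⟩
  haveI : CharP F 2 := charP_of_card_eq_prime_pow (f := 2) (Fintype.card_eq_nat_card ▸ hF)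
  set mk := QuotientGroup.mk' (Subgroup.center ↥(Cfsg.SU 3 F 2))
  set M' := M.comap mk
  haveI : M'.Normal := hM.comap mk
  have hsurj : Function.Surjective mk := QuotientGroup.mk'_surjective _
  have hSU : Nat.card ↥(Cfsg.SU 3 F 2) = 3 * Nat.card (Cfsg.PSU 3 F 2) := by
    rw [card_SU_eq_gcd_mul hF (by norm_num)]; norm_num
  have hM' : Nat.card M' = 3 * 2 ^ k := by
    have h1 := M'.card_mul_index
    rw [Subgroup.index_comap_of_surjective _ hsurj, hSU, ← M.card_mul_index, hk, ← mul_assoc] at h1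
    exact Nat.eq_of_mul_eq_mul_right (Nat.pos_of_ne_zero Subgroup.index_ne_zero_of_finite) h1
  have hZ : ∀ z ∈ Subgroup.center ↥(Cfsg.SU 3 F 2), z ^ 3 = 1 := fun z hz => by
    have h1 : Nat.card (Subgroup.center ↥(Cfsg.SU 3 F 2)) = 3 := by
      rw [card_center_SU hF (by norm_num)]; norm_num
    have h2 := pow_card_eq_one' (x := (⟨z, hz⟩ : Subgroup.center ↥(Cfsg.SU 3 F 2)))
    rw [h1] at h2
    exact congrArg Subtype.val h2
  have hZM : Subgroup.center ↥(Cfsg.SU 3 F 2) ≤ M' := fun z hz => by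
    change (QuotientGroup.mk z : Cfsg.PSU 3 F 2) ∈ M
    rw [(QuotientGroup.eq_one_iff z).mpr hz]
    exact M.one_mem
  -- a common eigenvector
  obtain ⟨P⟩ := (inferInstance : Nonempty (Sylow 2 ↥M'))
  letI : MulAction ↥(P : Subgroup ↥M') (Fin 3 → F) :=
    { smul := fun t v => sv t.1.1 v
      one_smul := fun v => sv_one v
      mul_smul := fun s t v => sv_mul s.1.1 t.1.1 v }
  have h0fix : (0 : Fin 3 → F) ∈ MulAction.fixedPoints ↥(P : Subgroup ↥M') (Fin 3 → F) := fun t => by
    change sv t.1.1 0 = 0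
    rw [← zero_smul F (0 : Fin 3 → F), sv_smul, zero_smul, zero_smul]
  obtain ⟨v, hv, hv0⟩ := P.isPGroup'.exists_fixed_point_of_prime_dvd_card_of_fixed_point (Fin 3 → F) (by
    rw [Nat.card_eq_fintype_card, Fintype.card_fun, hF, Fintype.card_fin]; norm_num) h0fix
  replace hv0 : v ≠ 0 := Ne.symm hv0
  let H : Subgroup ↥M' :=
    { carrier := {s | ∃ a : F, a ≠ 0 ∧ sv s.1 v = a • v}
      one_mem' := ⟨1, one_ne_zero, by rw [one_smul]; exact sv_one v⟩
      mul_mem' := fun {s t} ⟨a, ha, hs⟩ ⟨b, hb, ht⟩ => ⟨b * a, mul_ne_zero hb ha, by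
        change sv (s.1 * t.1) v = _
        rw [sv_mul, ht, sv_smul, hs, smul_smul]⟩
      inv_mem' := fun {s} ⟨a, ha, hs⟩ => ⟨a⁻¹, inv_ne_zero ha, by
        change sv s.1⁻¹ v = _
        have h1 := congrArg (sv s.1⁻¹) hs
        rw [sv_inv_sv, sv_smul] at h1
        conv_rhs => rw [h1]
        rw [inv_smul_smul₀ ha]⟩ }
  have hHtop : H = ⊤ := by
    refine Subgroup.eq_top_of_card_eq _ (Nat.dvd_antisymm (Subgroup.card_subgroup_dvd_card H) ?_)
    rw [hM']
    refine Nat.Coprime.mul_dvd_of_dvd_of_dvd ((Nat.Coprime.pow_right k (by norm_num))) ?_ ?_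
    · have hle : (Subgroup.center ↥(Cfsg.SU 3 F 2)).subgroupOf M' ≤ H := fun z hz => by
        obtain ⟨c, hc⟩ := (mem_center_SU_iff hF (by norm_num) z.1).mp hz
        refine ⟨c, fun h0 => ?_, ?_⟩
        · have hd := z.1.1.2
          rw [hc, h0, map_zero, Matrix.det_zero] at hd
          exact zero_ne_one hd
        · change (z.1.1 : Matrix (Fin 3) (Fin 3) F) *ᵥ v = _
          rw [hc, Matrix.scalar_apply, ← Matrix.smul_one_eq_diagonal, Matrix.smul_mulVec, Matrix.one_mulVec]
      refine (dvd_of_eq ?_).trans (Subgroup.card_dvd_of_le hle)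
      rw [Nat.card_congr (Subgroup.subgroupOfEquivOfLe hZM).toEquiv, card_center_SU hF (by norm_num)]
      norm_num
    · have hle : (P : Subgroup ↥M') ≤ H := fun t ht =>
        ⟨1, one_ne_zero, by rw [one_smul]; exact hv ⟨t, ht⟩⟩
      exact (P.pow_dvd_card_of_pow_dvd_card (hM' ▸ Dvd.intro_left 3 rfl)).trans (Subgroup.card_dvd_of_le hle)
  -- the fixed space of the elements of `2`-power order
  let T : ↥(Cfsg.SU 3 F 2) → Prop := fun t => t ∈ M' ∧ t ^ (2 ^ k) = 1
  let W : Submodule F (Fin 3 → F) :=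
    { carrier := {w | ∀ t, T t → sv t w = w}
      add_mem' := fun ha hb t ht => by rw [sv_add, ha t ht, hb t ht]
      zero_mem' := fun t ht => by rw [← zero_smul F (0 : Fin 3 → F), sv_smul, zero_smul, zero_smul]
      smul_mem' := fun c w hw t ht => by rw [sv_smul, hw t ht] }
  have hvW : v ∈ W := by
    rintro t ⟨htM, ht⟩
    obtain ⟨a, -, ha⟩ : (⟨t, htM⟩ : ↥M') ∈ H := hHtop ▸ Subgroup.mem_top _
    change sv t v = a • v at ha
    have hj : ∀ j : ℕ, sv (t ^ j) v = a ^ j • v := by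
      intro j
      induction j with
      | zero => rw [pow_zero, sv_one, pow_zero, one_smul]
      | succ j ih => rw [pow_succ, sv_mul, ha, sv_smul, ih, smul_smul, pow_succ, mul_comm]
    have h1 := hj (2 ^ k)
    rw [ht, sv_one] at h1
    have h2 : a ^ 2 ^ k = 1 := (smul_left_injective F hv0 ((one_smul F v).trans h1)).symm
    have h3 : (a - 1) ^ 2 ^ k = 0 := by rw [sub_pow_char_pow, one_pow, h2, sub_self]
    rw [ha, sub_eq_zero.mp (eq_zero_of_pow_eq_zero h3), one_smul]
  have hinv : ∀ (s : ↥(Cfsg.SU 3 F 2)) (w : Fin 3 → F), w ∈ W → sv s w ∈ W := by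
    rintro s w hw t ⟨htM, ht⟩
    have h1 : T (s⁻¹ * t * s) := by
      refine ⟨by simpa using (inferInstance : M'.Normal).conj_mem t htM s⁻¹, ?_⟩
      have h2 := (conj_pow (i := 2 ^ k) (a := s⁻¹) (b := t))
      rw [inv_inv, ht, mul_one, inv_mul_cancel] at h2
      exact h2
    calc sv t (sv s w) = sv s (sv (s⁻¹ * t * s) w) := by
          rw [← sv_mul, ← sv_mul]; congr 1; group
      _ = sv s w := by rw [hw _ h1]
  obtain ⟨ω, hω0, hω1⟩ : ∃ ω : F, ω ≠ 0 ∧ ω ≠ 1 := by
    by_contra hall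
    push Not at hall
    have h1 : (Finset.univ : Finset F) ⊆ {0, 1} := fun x _ => by
      by_cases hx : x = 0
      · simp [hx]
      · simp [hall x hx]
    have h2 := (Finset.card_le_card h1).trans Finset.card_le_two
    rw [Finset.card_univ, hF] at h2
    norm_num at h2
  have hω3 : ω ^ 3 = 1 := by
    have := FiniteField.pow_card_sub_one_eq_one ω hω0
    rwa [hF] at this
  have hωs : 1 + ω + ω ^ 2 = 0 :=
    (mul_eq_zero.mp (show (ω - 1) * (1 + ω + ω ^ 2) = 0 by linear_combination hω3)).resolve_left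
      (sub_ne_zero.mpr hω1)
  have hωi : ω⁻¹ = ω ^ 2 := inv_eq_of_mul_eq_one_right (by linear_combination hω3)
  have hthree : (3 : F) = 1 := by
    have h2 : (2 : F) = 0 := CharTwo.two_eq_zero
    linear_combination h2
  obtain ⟨c, hc⟩ := Function.ne_iff.mp hv0
  have hcW : (Pi.single c 1 : Fin 3 → F) ∈ W := by
    obtain ⟨i, j, hij, hic, hjc⟩ : ∃ i j : Fin 3, i ≠ j ∧ i ≠ c ∧ j ≠ c :=
      ⟨c + 1, c + 2, by fin_cases c <;> decide, by fin_cases c <;> decide, by fin_cases c <;> decide⟩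
    obtain ⟨A, hA, hAv⟩ := exists_torus_mem_SU (F := F) (n := 3) (q := 2) hω3 hij
    have hAw : ∀ (w : Fin 3 → F) (l : Fin 3), sv (⟨A, hA⟩ : ↥(Cfsg.SU 3 F 2)) w l =
        Function.update (Function.update (fun _ => (1 : F)) i ω) j ω⁻¹ l * w l := fun w l => by
      change (A.1 *ᵥ w) l = _
      rw [hAv, mulVec_diagonal]
    have hsum : v + sv ⟨A, hA⟩ v + sv ⟨A, hA⟩ (sv ⟨A, hA⟩ v) = Pi.single c (v c) := by
      funext l
      rw [Pi.add_apply, Pi.add_apply, hAw, hAw, hAw]
      by_cases hlc : l = c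
      · subst hlc
        rw [Function.update_of_ne (Ne.symm hjc), Function.update_of_ne (Ne.symm hic), Pi.single_eq_same]
        linear_combination v l * hthree
      rw [Pi.single_eq_of_ne hlc]
      by_cases hli : l = i
      · subst hli
        rw [Function.update_of_ne hij, Function.update_self]
        linear_combination v l * hωs
      have hlj : l = j := by
        revert hlc hli hij hic hjc
        fin_cases l <;> fin_cases i <;> fin_cases j <;> fin_cases c <;> decide
      subst hlj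
      rw [Function.update_self, hωi]
      linear_combination v l * hωs + v l * ω * hω3
    have h1 : Pi.single c (v c) ∈ W := hsum ▸ W.add_mem (W.add_mem hvW (hinv _ _ hvW)) (hinv _ _ (hinv _ _ hvW))
    have h2 := W.smul_mem (v c)⁻¹ h1
    rwa [← Pi.single_smul', smul_eq_mul, inv_mul_cancel₀ hc] at h2
  have hall : ∀ i, (Pi.single i 1 : Fin 3 → F) ∈ W := by
    intro i
    by_cases hic : i = c
    · exact hic ▸ hcW
    obtain ⟨A, hA, hAv⟩ := exists_swap_mem_SU (F := F) (n := 3) (q := 2) hF hic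
    convert hinv ⟨A, hA⟩ _ hcW using 1
    funext l
    change _ = (A.1 *ᵥ (Pi.single c 1 : Fin 3 → F)) l
    rw [hAv, monoMat_mulVec]
    by_cases hli : l = i
    · subst hli
      rw [Pi.single_eq_same, Function.update_self, Equiv.swap_apply_left, Pi.single_eq_same, mul_one,
        CharTwo.neg_eq]
    · rw [Pi.single_eq_of_ne hli, Function.update_of_ne hli, one_mul, Pi.single_eq_of_ne]
      intro h
      exact hli ((Equiv.swap i c).injective (h.trans (Equiv.swap_apply_left i c).symm))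
  have hWtop : ∀ w, w ∈ W := fun w => by
    rw [← Finset.univ_sum_single w]
    refine W.sum_mem fun i _ => ?_
    have := W.smul_mem (w i) (hall i)
    rwa [← Pi.single_smul', smul_eq_mul, mul_one] at this
  have hT1 : ∀ t, T t → t = 1 := fun t ht => sv_ext fun x => (hWtop x t ht).trans (sv_one x).symm
  refine (Subgroup.eq_bot_iff_forall _).mpr fun m hm => ?_
  obtain ⟨s, rfl⟩ := hsurj m
  have hmk : (mk s) ^ 2 ^ k = 1 := by
    have h1 := pow_card_eq_one' (x := (⟨mk s, hm⟩ : M))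
    rw [hk] at h1
    exact congrArg Subtype.val h1
  have hs3 : s ^ 3 = 1 := by
    refine hT1 _ ⟨M'.pow_mem (show s ∈ M' from hm) 3, ?_⟩
    rw [← pow_mul, mul_comm, pow_mul]
    exact hZ _ ((QuotientGroup.eq_one_iff _).mp (by rw [← map_pow] at hmk; exact hmk))
  have h3 : (mk s) ^ 3 = 1 := by rw [← map_pow, hs3, map_one]
  have hdvd := Nat.dvd_gcd (orderOf_dvd_of_pow_eq_one h3) (orderOf_dvd_of_pow_eq_one hmk)
  rw [Nat.Coprime.pow_right k (show Nat.Coprime 3 2 by norm_num), Nat.dvd_one] at hdvd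
  exact orderOf_eq_one_iff.mp hdvd

theorem card_PSU_three_two {F : Type*} [Field F] [Fintype F] (hF : Fintype.card F = 2 ^ 2) :
    Nat.card (Cfsg.PSU 3 F 2) = 2 ^ 3 * 3 ^ 2 := by
  have h := card_PSU (n := 3) hF (by norm_num)
  norm_num [Finset.prod_range_succ] at h ⊢
  omega

/-- The `p'`-core of `PSU_n(q)` is trivial when `p` is an odd prime, `p ∤ q`, dividing its order. -/
theorem psu_core (hF : Fintype.card F = q ^ 2) (hn : 3 ≤ n) {p r : ℕ} [Fact r.Prime] [CharP F r]
    (hp : p.Prime) (hp2 : p ≠ 2) (hpr : p ≠ r) (hdvd : p ∣ Nat.card PSUn)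
    (M : Subgroup PSUn) [hM : M.Normal] (hMc : (Nat.card M).Coprime p) : M = ⊥ := by
  by_cases h32 : n = 3 ∧ q = 2
  · obtain ⟨rfl, rfl⟩ := h32
    rw [card_PSU_three_two hF] at hdvd
    have hp3 : p = 3 := by
      rcases hp.dvd_mul.mp hdvd with h | h
      · exact absurd ((Nat.prime_dvd_prime_iff_eq hp Nat.prime_two).mp (hp.dvd_of_dvd_pow h)) hp2
      · exact (Nat.prime_dvd_prime_iff_eq hp Nat.prime_three).mp (hp.dvd_of_dvd_pow h)
    subst hp3
    have h1 := Subgroup.card_subgroup_dvd_card M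
    rw [card_PSU_three_two hF] at h1
    obtain ⟨k, -, hk⟩ := (Nat.dvd_prime_pow Nat.prime_two).mp ((hMc.pow_right 2).dvd_of_dvd_mul_right h1)
    exact eq_bot_of_two_group hF M hk
  · set mk := QuotientGroup.mk' (Subgroup.center SUn)
    have hsurj : Function.Surjective mk := QuotientGroup.mk'_surjective _
    haveI : (M.comap mk).Normal := hM.comap mk
    rcases le_center_or_eq_top hF hn h32 (M.comap mk) with h | h
    · refine (Subgroup.eq_bot_iff_forall _).mpr fun m hm => ?_
      obtain ⟨s, rfl⟩ := hsurj m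
      exact (QuotientGroup.eq_one_iff _).mpr (h hm)
    · exfalso
      rw [← Subgroup.map_comap_eq_self_of_surjective hsurj M, h, Subgroup.map_top_of_surjective _ hsurj,
        Subgroup.card_top] at hMc
      exact hp.ne_one (Nat.eq_one_of_dvd_coprimes hMc hdvd dvd_rfl)

/-- `PSU_3(2)` is not simple. -/
theorem not_three_two_of_simple (hF : Fintype.card F = q ^ 2) (hn : 3 ≤ n) (hK : IsSimpleGroup PSUn) :
    ¬ (n = 3 ∧ q = 2) := by
  rintro ⟨rfl, rfl⟩
  haveI := hK
  have hs := CfsgLib.Chars.Apps.isSolvable_of_card_eq_pow_mul_pow _ Nat.prime_two Nat.prime_three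
    (card_PSU_three_two hF)
  have hc := IsSimpleGroup.comm_iff_isSolvable.mpr hs
  have hinj := conj_injective (F := F) (m := 1) (q := 2) hF le_rfl
  obtain ⟨x, hx⟩ := exists_ne (1 : Cfsg.PSU 3 F 2)
  refine hx ((map_eq_one_iff (MulAut.conj : Cfsg.PSU 3 F 2 →* MulAut (Cfsg.PSU 3 F 2)) hinj).mp
    (MulEquiv.ext fun y => ?_))
  rw [MulAut.conj_apply, MulAut.one_apply, hc x y, mul_inv_cancel_right]

end CfsgLib.AutPSU
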