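import Cfsg.Agent.AutPSU.ToPSL

/-!
# Descent of an automorphism `δ φ` of `PSU_n(q)` of prime order to the fixed field
-/

set_option autoImplicit false

namespace CfsgLib.AutPSU

open Matrix CfsgLib.Unitary
open CfsgLib.AutPSL (conjPSL mapPSL conjSL mapSL invTrSL glAut gfTwist fixImage)

/-- The image in `G / Z(G)` of the fixed points of an automorphism of `G`. -/
def fixImageU {G : Type*} [Group G] (e : MulAut G) : Subgroup (G ⧸ Subgroup.center G) :=
  (MonoidHom.eqLocus e.toMonoidHom (MonoidHom.id G)).map (QuotientGroup.mk' (Subgroup.center G))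

theorem fixImageU_norm {G : Type*} [Group G] (e : MulAut G) (g : G)
    (hc : (QuotientGroup.mk (e g) : G ⧸ Subgroup.center G) = QuotientGroup.mk g) :
    ∀ x ∈ fixImageU e, (QuotientGroup.mk g : G ⧸ Subgroup.center G) * x * (QuotientGroup.mk g)⁻¹ ∈ fixImageU e := by
  rintro _ ⟨s, hs, rfl⟩
  rw [eq_comm, QuotientGroup.eq] at hc
  refine ⟨g * s * g⁻¹, ?_, rfl⟩
  have hs' : e s = s := hs
  have hz := Subgroup.mem_center_iff.mp hc s
  change e (g * s * g⁻¹) = g * s * g⁻¹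
  rw [map_mul, map_mul, map_inv, hs']
  calc e g * s * (e g)⁻¹ = g * ((g⁻¹ * e g) * s) * (g⁻¹ * e g)⁻¹ * g⁻¹ := by group
    _ = g * (s * (g⁻¹ * e g)) * (g⁻¹ * e g)⁻¹ * g⁻¹ := by rw [hz]
    _ = g * s * g⁻¹ := by group

/-- Triviality of the `p'`-core passes between subgroups with the same image under embeddings. -/
theorem core_transfer {G₁ G₂ H : Type*} [Group G₁] [Group G₂] [Group H] [Finite G₁] (f : G₁ →* H)
    (g : G₂ →* H) (hf : Function.Injective f) (hg : Function.Injective g) (S : Subgroup G₁)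
    (T : Subgroup G₂) (h : S.map f = T.map g) {p : ℕ}
    (hT : ∀ M : Subgroup ↥T, M.Normal → (Nat.card M).Coprime p → M = ⊥) :
    ∀ M : Subgroup ↥S, M.Normal → (Nat.card M).Coprime p → M = ⊥ := by
  intro M hM hMc
  let φ : ↥T ≃* ↥S := (T.equivMapOfInjective g hg).trans
    ((MulEquiv.subgroupCongr h.symm).trans (S.equivMapOfInjective f hf).symm)
  have h1 := hT (M.comap φ.toMonoidHom) (hM.comap _) (by
    refine hMc.coprime_dvd_left ?_
    rw [← CfsgLib.Constrained.card_map_of_injective φ.toMonoidHom φ.injective]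
    exact Subgroup.card_dvd_of_le (Subgroup.map_comap_le _ _))
  refine (Subgroup.eq_bot_iff_forall _).mpr fun y hy => ?_
  obtain ⟨z, rfl⟩ := φ.surjective y
  have h2 : z ∈ M.comap φ.toMonoidHom := hy
  rw [h1, Subgroup.mem_bot] at h2
  rw [h2, map_one]

variable {F : Type*} [Field F] [Fintype F] {n q : ℕ} {F₀ : Type*} [Field F₀]

set_option quotPrecheck false in
local notation "GUn" => ↥(Cfsg.GU n F q)
set_option quotPrecheck false in
local notation "SUn" => ↥(Cfsg.SU n F q)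
local notation "PSUn" => Cfsg.PSU n F q
local notation "SLn" => Matrix.SpecialLinearGroup (Fin n) F
local notation "SL0" => Matrix.SpecialLinearGroup (Fin n) F₀
local notation "PSLn" => Matrix.ProjectiveSpecialLinearGroup (Fin n) F

/-- A frame over the fixed field for `δ φ`: `δ = P σ(P)⁻¹`, and the form in the frame is rational. -/
def IsFrame (hF : Fintype.card F = q ^ 2) (σ : RingAut F) (e : F₀ →+* F) (g : GUn) (P : GL (Fin n) F)
    (K₀ : GL (Fin n) F₀) : Prop :=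
  (conjPSL g.1 : MulAut PSLn) = conjPSL (P * (glAut σ P)⁻¹) ∧
    (conjPSL (gfTwist (qAut hF) P) : MulAut PSLn) = conjPSL (P * Matrix.GeneralLinearGroup.map e K₀)

/-- The lift on `SL_n` of the subfield. -/
noncomputable def lift₀ (θ₀ : RingAut F₀) (K₀ : GL (Fin n) F₀) : MulAut SL0 :=
  conjSL K₀ * (mapSL θ₀ * invTrSL)

variable (hF : Fintype.card F = q ^ 2) {σ : RingAut F} (e : F₀ →+* F)
  (he : ∀ x, σ x = x ↔ ∃ y, e y = x) {θ₀ : RingAut F₀} (hθ₀ : ∀ x, qAut hF (e x) = e (θ₀ x))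

include he in
theorem exists_frame_of_pow (hn : 3 ≤ n) {p : ℕ} (hσ : orderOf σ = p) (hp : 0 < p) (g : GUn)
    (hx : (conjPSU g * mapPSU σ : MulAut PSUn) ^ p = 1) :
    ∃ (P : GL (Fin n) F) (K₀ : GL (Fin n) F₀), IsFrame hF σ e g P K₀ := by
  have hn2 : 2 ≤ n := by omega
  have hE : Ext (conjPSU g * mapPSU σ : MulAut PSUn) (conjPSL g.1 * mapPSL σ) := ⟨g, σ, rfl, rfl⟩
  have hpow : (conjPSL g.1 * mapPSL σ : MulAut PSLn) ^ p = 1 :=
    Ext.right_unique hF hn (hE.pow p) (by rw [hx]; exact Ext.one)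
  obtain ⟨P, hP⟩ := CfsgLib.AutPSL.field_twist_conj hn2 hσ hp g.1 hpow
  rw [CfsgLib.AutPSL.conj_map_conj_inv, mul_left_inj] at hP
  set θ := qAut hF
  have hσP : (conjPSL (glAut σ P) : MulAut PSLn) = conjPSL (g.1⁻¹ * P) := by
    rw [CfsgLib.AutPSL.conjPSL_mul, CfsgLib.AutPSL.conjPSL_inv, hP, CfsgLib.AutPSL.conjPSL_mul,
      CfsgLib.AutPSL.conjPSL_inv]
    group
  have hTg : gfTwist θ g.1 = g.1 := (mem_GU_iff_twist hF g.1).mp g.2
  have hTσP : (conjPSL (gfTwist θ (glAut σ P)) : MulAut PSLn) = conjPSL (g.1⁻¹ * gfTwist θ P) := by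
    rw [conjPSL_gfTwist_congr hn2 θ hσP, gfTwist_mul, gfTwist_inv, hTg]
  have hcomm : (conjPSL (P⁻¹ * gfTwist θ P) : MulAut PSLn) * mapPSL σ =
      mapPSL σ * conjPSL (P⁻¹ * gfTwist θ P) := by
    rw [CfsgLib.AutPSL.mapPSL_mul_conj', mul_left_inj, map_mul, map_inv, ← gfTwist_glAut,
      CfsgLib.AutPSL.conjPSL_mul (glAut σ P)⁻¹, CfsgLib.AutPSL.conjPSL_inv (glAut σ P), hσP, hTσP]
    simp only [CfsgLib.AutPSL.conjPSL_mul, CfsgLib.AutPSL.conjPSL_inv]
    group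
  obtain ⟨u, K₀, hK⟩ := (CfsgLib.AutPSL.field_commute_iff hn2 hσ hp e he _).mp hcomm
  refine ⟨P, K₀, hP, ?_⟩
  rw [show gfTwist θ P = P * (P⁻¹ * gfTwist θ P) by group, hK, CfsgLib.AutPSL.conjPSL_mul P,
    CfsgLib.AutPSL.conjPSL_scalar_mul, ← CfsgLib.AutPSL.conjPSL_mul]

namespace IsFrame

variable {hF} {e}
variable {g : ↥(Cfsg.GU n F q)}
variable {P : GL (Fin n) F} {K₀ : GL (Fin n) F₀}

include hθ₀ in
theorem sq (hn : 2 ≤ n) (h : IsFrame hF σ e g P K₀) :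
    (conjPSL (K₀ * gfTwist θ₀ K₀) : MulAut (Matrix.ProjectiveSpecialLinearGroup (Fin n) F₀)) = conjPSL 1 := by
  refine conjPSL_descend e ?_
  have h1 := conjPSL_gfTwist_congr hn (qAut hF) h.2
  rw [gfTwist_gfTwist (qAut_sq hF), gfTwist_mul, ← map_gfTwist e hθ₀, CfsgLib.AutPSL.conjPSL_mul, h.2,
    CfsgLib.AutPSL.conjPSL_mul, mul_assoc, ← CfsgLib.AutPSL.conjPSL_mul, ← map_mul] at h1
  rw [map_one, CfsgLib.AutPSL.conjPSL_one]
  exact (mul_left_cancel (a := (conjPSL P : MulAut PSLn)) (by rw [mul_one]; exact h1)).symm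

include he hθ₀ in
theorem change (h : IsFrame hF σ e g P K₀) (Q : GL (Fin n) F₀) :
    IsFrame hF σ e g (P * Matrix.GeneralLinearGroup.map e Q) (Q⁻¹ * K₀ * gfTwist θ₀ Q) := by
  have hσQ : glAut σ (Matrix.GeneralLinearGroup.map e Q) = Matrix.GeneralLinearGroup.map e Q :=
    Units.ext (Matrix.ext fun i j => (he _).mpr ⟨_, rfl⟩)
  refine ⟨?_, ?_⟩
  · rw [h.1, map_mul, hσQ]
    congr 1
    group
  · rw [gfTwist_mul, ← map_gfTwist e hθ₀, CfsgLib.AutPSL.conjPSL_mul, h.2, ← CfsgLib.AutPSL.conjPSL_mul]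
    congr 1
    simp only [map_mul, map_inv]
    group

theorem congr_form [Fintype F₀] (hn : 2 ≤ n) (h : IsFrame hF σ e g P K₀) {K : GL (Fin n) F₀}
    (hK : (conjPSL K₀ : MulAut (Matrix.ProjectiveSpecialLinearGroup (Fin n) F₀)) = conjPSL K) :
    IsFrame hF σ e g P K :=
  ⟨h.1, by rw [h.2, CfsgLib.AutPSL.conjPSL_mul, CfsgLib.AutPSL.conjPSL_mul, conjPSL_map_congr hn e hK]⟩

include he hθ₀ in
theorem mem_lift_iff (hn : 2 ≤ n) (h : IsFrame hF σ e g P K₀) (s : SLn) :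
    (s ∈ Cfsg.SU n F q ∧ (conjSL g.1 * mapSL σ : MulAut SLn) s = s) ↔
      ∃ t : SL0, lift₀ θ₀ K₀ t = t ∧ s = conjSL P (Matrix.SpecialLinearGroup.map e t) := by
  set θ := qAut hF
  set c : MulAut SLn := conjSL P
  have hL : (conjSL g.1 * mapSL σ : MulAut SLn) = c * mapSL σ * c⁻¹ := by
    rw [conjSL_congr hn h.1, conjSL_mul, ← map_inv, mul_assoc, ← mapSL_mul_conjSL, conjSL_inv, mul_assoc]
  have hT : (mapSL θ * invTrSL : MulAut SLn) * c =
      c * (conjSL (Matrix.GeneralLinearGroup.map e K₀) * (mapSL θ * invTrSL)) := by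
    rw [gfLift_mul_conjSL, conjSL_congr hn h.2, conjSL_mul, mul_assoc]
  have hint : ∀ t : SL0, Matrix.SpecialLinearGroup.map e (lift₀ θ₀ K₀ t) =
      (conjSL (Matrix.GeneralLinearGroup.map e K₀) * (mapSL θ * invTrSL) : MulAut SLn)
        (Matrix.SpecialLinearGroup.map e t) := fun t => by
    rw [lift₀, MulAut.mul_apply, map_conjSL, MulAut.mul_apply, map_mapSL e hθ₀, map_invTrSL]
    rfl
  have hinj : Function.Injective (Matrix.SpecialLinearGroup.map e : SL0 → SLn) := fun a b hab =>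
    Subtype.ext (Matrix.map_injective e.injective (congrArg Subtype.val hab))
  rw [mem_SU_iff_fixed hF, hL]
  constructor
  · rintro ⟨h1, h2⟩
    obtain ⟨w, rfl⟩ := c.surjective s
    have hw : mapSL σ w = w := c.injective (by
      simpa [MulAut.mul_apply] using h2)
    choose a ha using fun i j => (he _).mp (congrFun (congrFun (congrArg Subtype.val hw) i) j)
    have hA : (Matrix.of a).map e = w.1 := by ext i j; exact ha i j
    have hd : (Matrix.of a).det = 1 := e.injective (by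
      rw [e.map_det, map_one]
      exact (congrArg Matrix.det hA).trans w.2)
    obtain ⟨tA, htA⟩ : ∃ tA : SL0, tA.1 = Matrix.of a := ⟨⟨Matrix.of a, hd⟩, rfl⟩
    have hwt : w = Matrix.SpecialLinearGroup.map e tA := by
      refine (Subtype.ext ?_).symm
      change tA.1.map e = w.1
      rw [htA, hA]
    refine ⟨tA, hinj ?_, congrArg c hwt⟩
    rw [hint, ← hwt]
    refine c.injective ?_
    rw [← MulAut.mul_apply, ← hT, MulAut.mul_apply]
    exact h1
  · rintro ⟨t, ht, rfl⟩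
    refine ⟨?_, ?_⟩
    · rw [← MulAut.mul_apply, hT, MulAut.mul_apply, ← hint, ht]
    · rw [MulAut.mul_apply, MulAut.inv_apply_self, MulAut.mul_apply]
      exact congrArg c (Subtype.ext (Matrix.ext fun i j => (he _).mpr ⟨_, rfl⟩))

include he hθ₀ in
theorem map_fix_eq (hn : 2 ≤ n) (h : IsFrame hF σ e g P K₀) :
    (fixImageU (conjSU g * mapSU σ : MulAut SUn)).map (psuToPSL hF hn) =
      (fixImage (lift₀ θ₀ K₀)).map
        ((conjPSL P : MulAut PSLn).toMonoidHom.comp (ratPSL e)) := by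
  apply le_antisymm
  · rintro _ ⟨_, ⟨s, hs, rfl⟩, rfl⟩
    obtain ⟨t, ht, hst⟩ := (h.mem_lift_iff he hθ₀ hn s.1).mp ⟨s.2, (Subtype.ext rfl).trans (congrArg Subtype.val (hs : (conjSU g * mapSU σ : MulAut SUn) s = s))⟩
    exact ⟨QuotientGroup.mk t, CfsgLib.AutPSL.mk_mem_fixImage ht, (congrArg QuotientGroup.mk hst).symm⟩
  · rintro _ ⟨_, ⟨t, ht, rfl⟩, rfl⟩
    obtain ⟨hs, hfix⟩ := (h.mem_lift_iff he hθ₀ hn _).mpr ⟨t, ht, rfl⟩
    refine ⟨QuotientGroup.mk ⟨_, hs⟩, ⟨⟨_, hs⟩, Subtype.ext ((Subtype.ext rfl).trans hfix), rfl⟩, rfl⟩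

include he hθ₀ in
theorem descend [Fintype F₀] (hn : 3 ≤ n) {p : ℕ} (hσ : orderOf σ = p) (hp : 0 < p)
    (h : IsFrame hF σ e g P K₀) (A : GUn) (τ : RingAut F)
    (hc : (conjPSU A * mapPSU τ : MulAut PSUn) * (conjPSU g * mapPSU σ) =
      conjPSU g * mapPSU σ * (conjPSU A * mapPSU τ)) :
    ∃ g₀ : GL (Fin n) F₀,
      (conjPSL (P⁻¹ * A.1 * glAut τ P) : MulAut PSLn) = conjPSL (Matrix.GeneralLinearGroup.map e g₀) ∧
      ((conjPSL K₀ : MulAut (Matrix.ProjectiveSpecialLinearGroup (Fin n) F₀)) = 1 →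
        (conjPSL (gfTwist θ₀ g₀) : MulAut (Matrix.ProjectiveSpecialLinearGroup (Fin n) F₀)) = conjPSL g₀) := by
  have hn2 : 2 ≤ n := by omega
  have hEy : Ext (conjPSU A * mapPSU τ : MulAut PSUn) (conjPSL A.1 * mapPSL τ) := ⟨A, τ, rfl, rfl⟩
  have hEx : Ext (conjPSU g * mapPSU σ : MulAut PSUn) (conjPSL g.1 * mapPSL σ) := ⟨g, σ, rfl, rfl⟩
  have hc' : (conjPSL A.1 * mapPSL τ : MulAut PSLn) * (conjPSL g.1 * mapPSL σ) =
      conjPSL g.1 * mapPSL σ * (conjPSL A.1 * mapPSL τ) :=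
    Ext.right_unique hF hn (hEy.mul hEx) (by rw [hc]; exact hEx.mul hEy)
  rw [h.1, ← CfsgLib.AutPSL.conj_map_conj_inv] at hc'
  set A' := P⁻¹ * A.1 * glAut τ P
  have hy : (conjPSL A' * mapPSL τ : MulAut PSLn) = (conjPSL P)⁻¹ * (conjPSL A.1 * mapPSL τ) * conjPSL P := by
    rw [CfsgLib.AutPSL.conjPSL_mul, CfsgLib.AutPSL.conjPSL_mul, CfsgLib.AutPSL.conjPSL_inv, mul_assoc,
      ← CfsgLib.AutPSL.mapPSL_mul_conj']
    simp only [mul_assoc]
  have hcomm : (conjPSL A' : MulAut PSLn) * mapPSL σ = mapPSL σ * conjPSL A' := by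
    refine mul_right_cancel (b := (mapPSL τ : MulAut PSLn)) ?_
    calc (conjPSL A' : MulAut PSLn) * mapPSL σ * mapPSL τ = conjPSL A' * mapPSL τ * mapPSL σ := by
          rw [mul_assoc, ← CfsgLib.AutPSL.mapPSL_mul, CfsgLib.AutPSL.ringAut_comm, CfsgLib.AutPSL.mapPSL_mul,
            mul_assoc]
      _ = (conjPSL P)⁻¹ * ((conjPSL A.1 * mapPSL τ) * (conjPSL P * mapPSL σ * (conjPSL P)⁻¹)) * conjPSL P := by
          rw [hy]; group
      _ = (conjPSL P)⁻¹ * ((conjPSL P * mapPSL σ * (conjPSL P)⁻¹) * (conjPSL A.1 * mapPSL τ)) * conjPSL P := by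
          rw [hc']
      _ = mapPSL σ * (conjPSL A' * mapPSL τ) := by rw [hy]; group
      _ = _ := by rw [mul_assoc]
  obtain ⟨u, g₀, hg₀⟩ := (CfsgLib.AutPSL.field_commute_iff hn2 hσ hp e he _).mp hcomm
  have hA' : (conjPSL A' : MulAut PSLn) = conjPSL (Matrix.GeneralLinearGroup.map e g₀) := by
    rw [hg₀, CfsgLib.AutPSL.conjPSL_scalar_mul]
  refine ⟨g₀, hA', fun hK => conjPSL_descend e ?_⟩
  have hTP : (conjPSL (gfTwist (qAut hF) P) : MulAut PSLn) = conjPSL P := by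
    rw [h.2, CfsgLib.AutPSL.conjPSL_mul, conjPSL_map_congr hn2 e (hK.trans CfsgLib.AutPSL.conjPSL_one.symm),
      map_one, CfsgLib.AutPSL.conjPSL_one, mul_one]
  rw [map_gfTwist e hθ₀, conjPSL_gfTwist_congr hn2 _ hA'.symm, ← hA', gfTwist_mul, gfTwist_mul,
    gfTwist_inv, (mem_GU_iff_twist hF A.1).mp A.2, gfTwist_glAut]
  simp only [A', CfsgLib.AutPSL.conjPSL_mul, CfsgLib.AutPSL.conjPSL_inv, hTP,
    conjPSL_glAut_congr hn2 τ hTP]

end IsFrame

end CfsgLib.AutPSU
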